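import Cfsg.Agent.SzDegrees.Torus
import Cfsg.Agent.Sz.Sylow
import Cfsg.Agent.Sz.Normalizers
import Cfsg.Agent.Sz.MinDeg
import Cfsg.Agent.S0157
import Cfsg.Agent.Blocks.Central
import Cfsg.Prelude.Def_DegreeGraph

/-!
The irreducible character degrees of the Suzuki groups.
-/

set_option autoImplicit false

namespace CfsgLib.SzDegrees

open Cfsg CfsgLib.CharBasics
open scoped ComplexConjugate

section Generic

/-- A vector with `∑ z² = 1` is supported at one point. -/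
theorem single_of_sq {ι : Type*} [DecidableEq ι] (s : Finset ι) (z : ι → ℤ) (h : ∑ i ∈ s, z i * z i = 1) :
    ∃ a ∈ s, z a * z a = 1 ∧ ∀ b ∈ s, b ≠ a → z b = 0 := by
  obtain ⟨a, ha, ha0⟩ : ∃ a ∈ s, z a ≠ 0 := by
    by_contra hc
    push Not at hc
    rw [Finset.sum_eq_zero fun i hi => by rw [hc i hi, mul_zero]] at h
    exact zero_ne_one h
  have h1 := Finset.add_sum_erase s (fun i => z i * z i) ha
  have h2 : 0 ≤ ∑ i ∈ s.erase a, z i * z i := Finset.sum_nonneg fun i _ => mul_self_nonneg _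
  have h3 : 1 ≤ z a * z a := by nlinarith [mul_self_pos.mpr ha0]
  simp only [h] at h1
  refine ⟨a, ha, le_antisymm (by linarith) h3, fun b hb hne => ?_⟩
  have h4 : ∑ i ∈ s.erase a, z i * z i = 0 := by linarith
  exact mul_self_eq_zero.mp ((Finset.sum_eq_zero_iff_of_nonneg fun i _ => mul_self_nonneg _).mp h4 b
    (Finset.mem_erase.mpr ⟨hne, hb⟩))

/-- Norm three vectors with mutual products two have support of size at most `n + 2`. -/
theorem support_bound {ι : Type*} [DecidableEq ι] (s : Finset ι) {n : ℕ} (z : Fin n → ι → ℤ)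
    (h : ∀ i j, ∑ a ∈ s, z i a * z j a = (if i = j then 1 else 0) + 2) :
    (s.filter fun a => ∃ i, z i a ≠ 0).card ≤ n + 2 := by
  classical
  have hdiag : ∀ i, ∑ a ∈ s, z i a * z i a = 3 := fun i => by rw [h, if_pos rfl]; norm_num
  have hle1 : ∀ i, ∀ a ∈ s, z i a * z i a ≤ 1 := by
    intro i a ha
    have h1 : z i a * z i a ≤ 3 := hdiag i ▸
      Finset.single_le_sum (f := fun a => z i a * z i a) (fun b _ => mul_self_nonneg _) ha
    have h2 : -1 ≤ z i a ∧ z i a ≤ 1 := by constructor <;> nlinarith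
    nlinarith
  have hsupp : ∀ i, (s.filter fun a => z i a ≠ 0).card = 3 := by
    intro i
    have h1 : ∑ a ∈ s, z i a * z i a = ∑ a ∈ s, if z i a ≠ 0 then (1 : ℤ) else 0 := by
      refine Finset.sum_congr rfl fun a ha => ?_
      by_cases h0 : z i a = 0
      · simp [h0]
      · rw [if_pos h0]; have := mul_self_pos.mpr h0; have := hle1 i a ha; omega
    rw [hdiag, Finset.sum_boole] at h1
    exact_mod_cast h1.symm
  rcases Nat.eq_zero_or_pos n with rfl | hn
  · rw [Finset.filter_false_of_mem fun a _ ⟨i, _⟩ => i.elim0]; simp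
  let i₀ : Fin n := ⟨0, hn⟩
  set S₀ := s.filter fun a => z i₀ a ≠ 0 with hS₀
  have hsub : (s.filter fun a => ∃ i, z i a ≠ 0) ⊆
      S₀ ∪ (Finset.univ.erase i₀).biUnion (fun i => (s.filter fun a => z i a ≠ 0) \ S₀) := by
    intro a ha
    obtain ⟨has, i, hi⟩ := Finset.mem_filter.mp ha
    by_cases h0 : a ∈ S₀
    · exact Finset.mem_union_left _ h0
    · refine Finset.mem_union_right _ (Finset.mem_biUnion.mpr ⟨i, Finset.mem_erase.mpr ⟨?_, Finset.mem_univ _⟩,
        Finset.mem_sdiff.mpr ⟨Finset.mem_filter.mpr ⟨has, hi⟩, h0⟩⟩)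
      rintro rfl
      exact h0 (Finset.mem_filter.mpr ⟨has, hi⟩)
  have hone : ∀ i ∈ Finset.univ.erase i₀, ((s.filter fun a => z i a ≠ 0) \ S₀).card ≤ 1 := by
    intro i hi
    have hd : (∑ a ∈ s, z i a * z i₀ a) = 2 := by rw [h, if_neg (Finset.ne_of_mem_erase hi)]; norm_num
    have hle : (∑ a ∈ s, z i a * z i₀ a) ≤ (((s.filter fun a => z i a ≠ 0) ∩ S₀).card : ℤ) := by
      rw [hS₀, ← Finset.filter_and, ← Finset.sum_boole]
      refine Finset.sum_le_sum fun a ha => ?_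
      split_ifs with hh
      · nlinarith [hle1 i a ha, hle1 i₀ a ha, sq_nonneg (z i a - z i₀ a)]
      · rw [not_and_or, not_not, not_not] at hh
        rcases hh with h0 | h0 <;> simp [h0]
    have hc := Finset.card_inter_add_card_sdiff (s.filter fun a => z i a ≠ 0) S₀
    rw [hsupp] at hc
    rw [hd] at hle
    have : 2 ≤ ((s.filter fun a => z i a ≠ 0) ∩ S₀).card := by exact_mod_cast hle
    omega
  refine (Finset.card_le_card hsub).trans ((Finset.card_union_le _ _).trans ?_)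
  have h2 := Finset.card_biUnion_le_card_mul _ _ 1 hone
  rw [Finset.card_erase_of_mem (Finset.mem_univ _), Finset.card_univ, Fintype.card_fin, mul_one] at h2
  have h3 : S₀.card = 3 := hsupp i₀
  omega

variable {G : Type*} [Group G] [Finite G]

/-- Classes meeting a self-centralising torus. -/
theorem classes_of_torus (T : Subgroup G) (hC : ∀ t : G, t ∈ T → t ≠ 1 → ∀ z : G, z * t = t * z → z ∈ T)
    (hcomm : ∀ a ∈ T, ∀ b ∈ T, a * b = b * a) {e : ℕ}
    (hN : Nat.card (Subgroup.normalizer (T : Set G)) = e * Nat.card T) :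
    ∃ D : Finset (ConjClasses G), Nat.card T ≤ e * D.card + 1 ∧
      ∀ c ∈ D, ∃ t : G, ConjClasses.mk t = c ∧ Nat.card (Subgroup.centralizer ({t} : Set G)) = Nat.card T := by
  classical
  haveI := Fintype.ofFinite G
  haveI : IsMulCommutative T := ⟨⟨fun a b => Subtype.ext (hcomm a a.2 b b.2)⟩⟩
  set S := (Finset.univ.filter fun t : G => t ∈ T ∧ t ≠ 1) with hS
  have hcent : ∀ t ∈ S, Subgroup.centralizer ({t} : Set G) = T := by
    intro t ht
    obtain ⟨-, htT, ht1⟩ := Finset.mem_filter.mp ht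
    ext z
    rw [Subgroup.mem_centralizer_singleton_iff]
    exact ⟨hC t htT ht1 z, fun hz => hcomm z hz t htT⟩
  refine ⟨S.image ConjClasses.mk, ?_, fun c hc => ?_⟩
  swap
  · obtain ⟨t, ht, rfl⟩ := Finset.mem_image.mp hc
    exact ⟨t, rfl, by rw [hcent t ht]⟩
  have hcardS : S.card + 1 = Nat.card T := by
    have h1 : S = (Finset.univ.filter fun t : G => t ∈ T).erase 1 := by ext t; simp [hS, and_comm]
    rw [h1, Finset.card_erase_add_one (by simp [T.one_mem]), Nat.card_eq_fintype_card, Fintype.card_subtype]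
  have hfib : ∀ c ∈ S.image ConjClasses.mk, (S.filter fun t => ConjClasses.mk t = c).card ≤ e := by
    intro c hc
    obtain ⟨t, ht, rfl⟩ := Finset.mem_image.mp hc
    obtain ⟨-, htT, ht1⟩ := Finset.mem_filter.mp ht
    set Nf := Finset.univ.filter fun x : G => x ∈ Subgroup.normalizer (T : Set G) with hNf
    have hsub : (S.filter fun s => ConjClasses.mk s = ConjClasses.mk t) ⊆ Nf.image fun x => x⁻¹ * t * x := by
      intro s hs
      obtain ⟨hsS, hst⟩ := Finset.mem_filter.mp hs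
      obtain ⟨-, hsT, -⟩ := Finset.mem_filter.mp hsS
      obtain ⟨g, hg⟩ := isConj_iff.mp (ConjClasses.mk_eq_mk_iff_isConj.mp hst.symm)
      have he : (g⁻¹)⁻¹ * t * g⁻¹ = s := by rw [inv_inv, hg]
      exact Finset.mem_image.mpr ⟨g⁻¹, Finset.mem_filter.mpr ⟨Finset.mem_univ _,
        mem_normalizer_of_conj T hC htT ht1 (by rw [he]; exact hsT)⟩, he⟩
    refine (Finset.card_le_card hsub).trans ?_
    refine Nat.le_of_mul_le_mul_right ?_ (Nat.card_pos (α := T))
    rw [← hN, Nat.card_eq_fintype_card (α := Subgroup.normalizer (T : Set G)), Fintype.card_subtype]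
    refine (mul_comm _ _).trans_le (Finset.mul_card_image_le_card Nf (Nat.card T) fun s hs => ?_)
    obtain ⟨x, hx, rfl⟩ := Finset.mem_image.mp hs
    rw [Nat.card_eq_fintype_card, ← Finset.card_univ]
    refine Finset.card_le_card_of_injOn (fun u : T => (u : G) * x) (fun u _ => ?_) (fun u _ v _ h => Subtype.ext (mul_right_cancel h))
    refine Finset.mem_filter.mpr ⟨Finset.mem_filter.mpr ⟨Finset.mem_univ _,
      Subgroup.mul_mem _ (Subgroup.le_normalizer u.2) (Finset.mem_filter.mp hx).2⟩, ?_⟩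
    have hc2 : t * (u : G) = u * t := hcomm t htT u u.2
    calc ((u : G) * x)⁻¹ * t * ((u : G) * x) = x⁻¹ * ((u : G)⁻¹ * (t * u)) * x := by group
      _ = x⁻¹ * t * x := by rw [hc2, inv_mul_cancel_left]
  calc Nat.card T = S.card + 1 := hcardS.symm
    _ ≤ e * (S.image ConjClasses.mk).card + 1 := by
      have := Finset.card_le_mul_card_image S e hfib
      omega

end Generic

section Suzuki

open CfsgLib.Sz

variable {F : Type*} [Field F] [Fintype F] {m : ℕ} (h : Hyp F m)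
include h

/-- The permutation character minus one. -/
theorem steinberg :
    ∃ χ : IrrCharacter (G F m), charDegree (χ : G F m → ℂ) = Fintype.card F ^ 2 ∧
      (∀ s : Fˣ, s ≠ 1 → (χ : G F m → ℂ) (gD h s) = ((1 : ℤ) : ℂ)) ∧
      ∀ g : G F m, Fpf h g → (χ : G F m → ℂ) g = ((-1 : ℤ) : ℂ) := by
  classical
  letI := ovAction h
  haveI : MulAction.IsPretransitive (G F m) (Ov F m) := ⟨fun p p' => by
    obtain ⟨g, hg⟩ := exists_move h p
    obtain ⟨g', hg'⟩ := exists_move h p'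
    refine ⟨g' * g⁻¹, ?_⟩
    show act h (g' * g⁻¹) p = p'
    rw [← hg, ← act_mul, inv_mul_cancel_right, hg']⟩
  have h2 : MulAction.IsMultiplyPretransitive (G F m) (Ov F m) 2 := two_transitive h
  have hcard : Nat.card (Ov F m) = Fintype.card F ^ 2 + 1 := card_ov m
  haveI : Finite (Ov F m) := Nat.finite_of_card_ne_zero (by rw [hcard]; exact Nat.succ_ne_zero _)
  have hX : 2 ≤ Nat.card (Ov F m) := by
    rw [hcard]; have := pow_pos (Fintype.card_pos (α := F)) 2; omega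
  have hirr := (Cfsg.Agent.S0157.result (Ov F m) hX).mpr h2
  refine ⟨⟨_, hirr⟩, ?_, fun s hs => ?_, fun g hg => ?_⟩
  · have e : Nat.card (MulAction.fixedBy (Ov F m) (1 : G F m)) = Fintype.card F ^ 2 + 1 := by
      rw [MulAction.fixedBy_one_eq_univ]
      rw [Nat.card_congr (Equiv.Set.univ _), hcard]
    have h1 : ((⟨_, hirr⟩ : IrrCharacter (G F m)) : G F m → ℂ) 1 = ((Fintype.card F ^ 2 : ℕ) : ℂ) := by
      show ((Nat.card (MulAction.fixedBy (Ov F m) (1 : G F m)) : ℂ) - 1) = _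
      rw [e]; push_cast; ring
    rw [apply_one (isCharacter_of_irr (⟨_, hirr⟩ : IrrCharacter (G F m)).2)] at h1
    exact_mod_cast h1
  · have e : MulAction.fixedBy (Ov F m) (gD h s) = {oinf m, opt m 0 0} := by
      ext p
      constructor
      · intro hp
        rcases Ov.cases' m p with rfl | ⟨x, y, rfl⟩
        · exact Or.inl rfl
        · by_cases h0 : x = 0 ∧ y = 0
          · exact Or.inr (by rw [h0.1, h0.2]; rfl)
          · exact absurd (gD_fix_imp h h0 hp) hs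
      · rintro (rfl | rfl)
        · exact gD_oinf h s
        · show act h (gD h s) (opt m 0 0) = opt m 0 0
          rw [gD_opt, mul_zero, mul_zero]
    show ((Nat.card (MulAction.fixedBy (Ov F m) (gD h s)) : ℂ) - 1) = _
    rw [e, Nat.card_coe_set_eq, Set.ncard_pair (opt_ne_oinf m 0 0).symm]
    norm_num
  · have e : MulAction.fixedBy (Ov F m) g = ∅ := Set.eq_empty_iff_forall_notMem.mpr fun p hp => hg p hp
    show ((Nat.card (MulAction.fixedBy (Ov F m) g) : ℂ) - 1) = _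
    rw [e]
    simp

omit h in
/-- The arithmetic heart: lower bounds on squares meeting the target force equality. -/
theorem squeeze {a b N M A B nA nB : ℤ} (hMA : M < A) (hMB : M < B) (hM : 0 ≤ M) (h1 : N - nA - 2 ≤ a)
    (h2 : N - nB - 2 ≤ b) (hN : nA + nB + 2 ≤ N)
    (hS : a * A ^ 2 + b * B ^ 2 + (N - a - b) * M ^ 2 ≤ nB * A ^ 2 + nA * B ^ 2 + 2 * M ^ 2) :
    a = nB ∧ b = nA ∧ N = nA + nB + 2 := by
  have hA : 0 < A ^ 2 - M ^ 2 := by nlinarith
  have hB : 0 < B ^ 2 - M ^ 2 := by nlinarith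
  have e : a * A ^ 2 + b * B ^ 2 + (N - a - b) * M ^ 2 - (nB * A ^ 2 + nA * B ^ 2 + 2 * M ^ 2) =
      (a - nB) * (A ^ 2 - M ^ 2) + (b - nA) * (B ^ 2 - M ^ 2) + (N - nA - nB - 2) * M ^ 2 := by ring
  have x1 : 0 ≤ (a - nB) * (A ^ 2 - M ^ 2) := mul_nonneg (by linarith) hA.le
  have x2 : 0 ≤ (b - nA) * (B ^ 2 - M ^ 2) := mul_nonneg (by linarith) hB.le
  have x3 : 0 ≤ (N - nA - nB - 2) * M ^ 2 := mul_nonneg (by linarith) (sq_nonneg M)
  have y1 : (a - nB) * (A ^ 2 - M ^ 2) = 0 := by linarith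
  have y2 : (b - nA) * (B ^ 2 - M ^ 2) = 0 := by linarith
  have z1 := (mul_eq_zero.mp y1).resolve_right hA.ne'
  have z2 := (mul_eq_zero.mp y2).resolve_right hB.ne'
  exact ⟨by linarith, by linarith, by linarith⟩

theorem class_bound {k₀ k₁ k₂ n₀ n₁ n₂ : ℕ} (T₀ T₁ T₂ : Finset (ConjClasses (G F m)))
    (c₀ : ∀ c ∈ T₀, ∃ t, ConjClasses.mk t = c ∧ Nat.card (Subgroup.centralizer ({t} : Set (G F m))) = k₀)
    (c₁ : ∀ c ∈ T₁, ∃ t, ConjClasses.mk t = c ∧ Nat.card (Subgroup.centralizer ({t} : Set (G F m))) = k₁)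
    (c₂ : ∀ c ∈ T₂, ∃ t, ConjClasses.mk t = c ∧ Nat.card (Subgroup.centralizer ({t} : Set (G F m))) = k₂)
    (o₀ : ¬ 2 ∣ k₀) (o₁ : ¬ 2 ∣ k₁) (o₂ : ¬ 2 ∣ k₂) (d01 : k₀ ≠ k₁) (d02 : k₀ ≠ k₂) (d12 : k₁ ≠ k₂)
    (b₀ : n₀ ≤ T₀.card) (b₁ : n₁ ≤ T₁.card) (b₂ : n₂ ≤ T₂.card) :
    4 + n₀ + n₁ + n₂ ≤ Nat.card (ConjClasses (G F m)) := by
  classical
  haveI := Fintype.ofFinite (ConjClasses (G F m))
  have hcentc : ∀ a b : G F m, ConjClasses.mk a = ConjClasses.mk b →
      Nat.card (Subgroup.centralizer ({a} : Set (G F m))) = Nat.card (Subgroup.centralizer ({b} : Set (G F m))) :=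
    fun a b e => CfsgLib.Blocks.card_centralizer_eq (ConjClasses.mk_eq_mk_iff_isConj.mp e)
  have hq0 : ¬ ((0 : F) = 1) := zero_ne_one
  set iv := gU h (0 : F) 1 with hiv
  set x := gU h (1 : F) 0 with hx
  have hiv1 : iv ≠ 1 := fun e => one_ne_zero ((gU_eq_one_iff h).mp e).2
  have hivsq : iv ^ 2 = 1 := (gU_sq_eq_one_iff h).mpr rfl
  have hxsq : x ^ 2 ≠ 1 := fun e => one_ne_zero ((gU_sq_eq_one_iff h).mp e)
  have hx1 : x ≠ 1 := fun e => hxsq (by rw [e, one_pow])
  have hx4 : x ^ 4 = 1 := gU_pow_four h 1 0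
  have heven : ∀ g : G F m, g ^ 4 = 1 → 2 ∣ Nat.card (Subgroup.centralizer ({g} : Set (G F m))) := by
    intro g hg
    by_cases hg1 : g = 1
    · subst hg1
      rw [show Subgroup.centralizer ({(1 : G F m)} : Set (G F m)) = ⊤ by
        ext y; simp [Subgroup.mem_centralizer_singleton_iff], Subgroup.card_top, card_G h]
      exact Dvd.dvd.mul_left (Dvd.dvd.mul_right (dvd_pow (even_iff_two_dvd.mp (q_facts h).1) two_ne_zero) _) _
    · have h2 : 2 ∣ orderOf g := by
        rcases (Nat.dvd_prime_pow Nat.prime_two).mp (show orderOf g ∣ 2 ^ 2 from orderOf_dvd_of_pow_eq_one hg) with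
          ⟨k, -, hk⟩
        rcases k with _ | k
        · exact absurd (orderOf_eq_one_iff.mp (by rw [hk, pow_zero])) hg1
        · rw [hk, pow_succ]; exact dvd_mul_left 2 _
      exact h2.trans (Subgroup.orderOf_dvd_natCard _ (Subgroup.mem_centralizer_singleton_iff.mpr rfl))
  set C : Finset (ConjClasses (G F m)) :=
    {ConjClasses.mk 1, ConjClasses.mk iv, ConjClasses.mk x, ConjClasses.mk x⁻¹} with hC
  have hCeven : ∀ c ∈ C, ∃ g, ConjClasses.mk g = c ∧ 2 ∣ Nat.card (Subgroup.centralizer ({g} : Set (G F m))) := by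
    intro c hc
    simp only [hC, Finset.mem_insert, Finset.mem_singleton] at hc
    rcases hc with rfl | rfl | rfl | rfl
    · exact ⟨1, rfl, heven 1 (one_pow 4)⟩
    · exact ⟨iv, rfl, heven iv (orderOf_dvd_iff_pow_eq_one.mp ((orderOf_dvd_of_pow_eq_one hivsq).trans (by norm_num)))⟩
    · exact ⟨x, rfl, heven x hx4⟩
    · exact ⟨x⁻¹, rfl, heven x⁻¹ (by rw [inv_pow, hx4, inv_one])⟩
  have hC4 : C.card = 4 := by
    have hn : ∀ a b : G F m, ¬ IsConj a b → ConjClasses.mk a ≠ ConjClasses.mk b := fun a b hab e =>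
      hab (ConjClasses.mk_eq_mk_iff_isConj.mp e)
    have p1 := hn 1 iv (fun e => hiv1 (isConj_one_right.mp e))
    have p2 := hn 1 x (fun e => hx1 (isConj_one_right.mp e))
    have p3 := hn 1 x⁻¹ (fun e => hx1 (inv_eq_one.mp (isConj_one_right.mp e)))
    have hpow : ∀ b : G F m, IsConj iv b → b ^ 2 = 1 := fun b e => by
      obtain ⟨g, rfl⟩ := isConj_iff.mp e
      rw [conj_pow, hivsq, mul_one, mul_inv_cancel]
    have p4 := hn iv x (fun e => hxsq (hpow x e))
    have p5 := hn iv x⁻¹ (fun e => hxsq (inv_eq_one.mp (by rw [← inv_pow]; exact hpow x⁻¹ e)))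
    have p6 := hn x x⁻¹ (fun e => by
      obtain ⟨g, hg⟩ := isConj_iff.mp e
      exact not_real h one_ne_zero g hg)
    rw [hC, Finset.card_insert_of_notMem (by simp [p1, p2, p3]), Finset.card_insert_of_notMem (by simp [p4, p5]),
      Finset.card_insert_of_notMem (by simp [p6]), Finset.card_singleton]
  have hd : ∀ (P Q : Finset (ConjClasses (G F m))) (R S : ℕ → Prop),
      (∀ c ∈ P, ∃ t, ConjClasses.mk t = c ∧ R (Nat.card (Subgroup.centralizer ({t} : Set (G F m))))) →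
      (∀ c ∈ Q, ∃ t, ConjClasses.mk t = c ∧ S (Nat.card (Subgroup.centralizer ({t} : Set (G F m))))) →
      (∀ k, R k → ¬ S k) → Disjoint P Q := by
    intro P Q R S hP hQ hRS
    rw [Finset.disjoint_left]
    intro c hcP hcQ
    obtain ⟨t, ht, htR⟩ := hP c hcP
    obtain ⟨u, hu, huS⟩ := hQ c hcQ
    exact hRS _ htR ((hcentc t u (ht.trans hu.symm)) ▸ huS)
  have d1 := hd C T₀ (2 ∣ ·) (· = k₀) hCeven c₀ fun k hk e => o₀ (e ▸ hk)
  have d2 := hd C T₁ (2 ∣ ·) (· = k₁) hCeven c₁ fun k hk e => o₁ (e ▸ hk)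
  have d3 := hd C T₂ (2 ∣ ·) (· = k₂) hCeven c₂ fun k hk e => o₂ (e ▸ hk)
  have d4 := hd T₀ T₁ (· = k₀) (· = k₁) c₀ c₁ fun k hk e => d01 (hk.symm.trans e)
  have d5 := hd T₀ T₂ (· = k₀) (· = k₂) c₀ c₂ fun k hk e => d02 (hk.symm.trans e)
  have d6 := hd T₁ T₂ (· = k₁) (· = k₂) c₁ c₂ fun k hk e => d12 (hk.symm.trans e)
  rw [Nat.card_eq_fintype_card]
  have hle := Finset.card_le_univ (C ∪ T₀ ∪ T₁ ∪ T₂)
  rw [Finset.card_union_of_disjoint (Finset.disjoint_union_left.mpr ⟨Finset.disjoint_union_left.mpr ⟨d3, d5⟩, d6⟩),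
    Finset.card_union_of_disjoint (Finset.disjoint_union_left.mpr ⟨d2, d4⟩), Finset.card_union_of_disjoint d1, hC4] at hle
  omega

set_option maxHeartbeats 1600000 in
/-- The character degrees of a Suzuki group. -/
theorem degrees :
    ∃ q M A B : ℕ, q = Fintype.card F ∧ M = 2 ^ m ∧ A * B = q ^ 2 + 1 ∧
      charDegrees (G F m) = {1, q ^ 2, q ^ 2 + 1, (q - 1) * A, (q - 1) * B, (q - 1) * M} := by
  classical
  letI : Fintype (G F m) := Fintype.ofFinite _
  haveI : Fintype (IrrCharacter (G F m)) := @Fintype.ofFinite _ finite_irrCharacter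
  obtain ⟨hqe, hq8, -⟩ := q_facts h
  set q := Fintype.card F with hq
  set M := 2 ^ m with hM
  have hr : 2 ^ (m + 1) = 2 * M := by rw [hM, pow_succ, mul_comm]
  have hqM : q = 2 * (M * M) := by
    rw [hq, h.hF, hM, ← pow_add, ← pow_succ']; congr 1; omega
  have hM2 : 2 ≤ M := by
    rw [hM]; exact Nat.le_self_pow (by have := h.hm; omega) 2
  set A := q + 2 * M + 1 with hAdef
  set B := q - 2 * M + 1 with hBdef
  have hrq : 2 * M ≤ q := by rw [hqM]; nlinarith
  have hBe : B + 2 * M = q + 1 := by omega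
  have hAB : A * B = q ^ 2 + 1 := by
    have : (A : ℤ) * B = (q : ℤ) ^ 2 + 1 := by
      have e1 : (B : ℤ) = q + 1 - 2 * M := by omega
      rw [e1, hAdef]; push_cast; rw [hqM]; push_cast; ring
    exact_mod_cast this
  have hMB : M < B := by nlinarith
  have hMA : M < A := by omega
  obtain ⟨St, hStd, hSt0, hSt1⟩ := steinberg h
  -- the three tori
  obtain ⟨uA, huA, hkA⟩ := (tori h).2 A (Or.inl (by rw [hr]))
  obtain ⟨uB, huB, hkB⟩ := (tori h).2 B (Or.inr (by rw [hr]))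
  set T₀ := (gDhom h).range with hT₀
  have hk₀ : Nat.card T₀ = q - 1 := card_range_gD h
  have hcomm0 : ∀ a ∈ T₀, ∀ b ∈ T₀, a * b = b * a := by
    rintro _ ⟨a, rfl⟩ _ ⟨b, rfl⟩; rw [← map_mul, mul_comm, map_mul]
  have hcommA : ∀ a ∈ tz uA, ∀ b ∈ tz uA, a * b = b * a := fun a ha b hb => tz_comm h huA ha hb
  have hcommB : ∀ a ∈ tz uB, ∀ b ∈ tz uB, a * b = b * a := fun a ha b hb => tz_comm h huB ha hb
  haveI : IsMulCommutative T₀ := ⟨⟨fun a b => Subtype.ext (hcomm0 a a.2 b b.2)⟩⟩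
  haveI : IsMulCommutative (tz uA) := ⟨⟨fun a b => Subtype.ext (hcommA a a.2 b b.2)⟩⟩
  haveI : IsMulCommutative (tz uB) := ⟨⟨fun a b => Subtype.ext (hcommB a a.2 b b.2)⟩⟩
  have hC0 : ∀ t : G F m, t ∈ T₀ → t ≠ 1 → ∀ z, z * t = t * z → z ∈ T₀ := by
    rintro _ ⟨s, rfl⟩ ht1 z hz
    have hs : s ≠ 1 := fun e => ht1 (by rw [e, map_one])
    rw [hT₀, ← cent_gD h hs]
    exact Subgroup.mem_centralizer_singleton_iff.mpr hz
  have hCT : ∀ u : G F m, Tor u → ∀ t : G F m, t ∈ tz u → t ≠ 1 → ∀ z, z * t = t * z → z ∈ tz u := by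
    intro u hu t ht ht1 z hz
    rw [← tz_eq h hu ht ht1]
    exact Subgroup.mem_centralizer_singleton_iff.mpr hz
  have hN0 : Nat.card (Subgroup.normalizer (T₀ : Set (G F m))) = 2 * Nat.card T₀ := by rw [card_dih h, hk₀]
  have hNA := ((tori h).1 uA huA).2
  have hNB := ((tori h).1 uB huB).2
  obtain ⟨n0, z0, hs0, hg0, hd0, hc0, hv0⟩ := exists_vectors T₀ hC0 hN0
  obtain ⟨nA, zA, hsA, hgA, hdA, hcA, hvA⟩ := exists_vectors (tz uA) (hCT uA huA) (e := 4) hNA
  obtain ⟨nB, zB, hsB, hgB, hdB, hcB, hvB⟩ := exists_vectors (tz uB) (hCT uB huB) (e := 4) hNB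
  rw [hk₀] at hs0
  rw [hkA] at hsA
  rw [hkB] at hsB
  -- lower bound on the number of classes
  have hclass : 4 + n0 + nA + nB ≤ Nat.card (ConjClasses (G F m)) := by
    obtain ⟨D0, hD0, hD0'⟩ := classes_of_torus T₀ hC0 hcomm0 hN0
    obtain ⟨DA, hDA, hDA'⟩ := classes_of_torus (tz uA) (hCT uA huA) hcommA (e := 4) hNA
    obtain ⟨DB, hDB, hDB'⟩ := classes_of_torus (tz uB) (hCT uB huB) hcommB (e := 4) hNB
    have hqd : 2 ∣ q := even_iff_two_dvd.mp hqe
    rw [hk₀] at hD0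
    rw [hkA] at hDA
    rw [hkB] at hDB
    refine class_bound h D0 DA DB hD0' hDA' hDB' ?_ ?_ ?_ ?_ ?_ ?_ ?_ ?_ ?_
    all_goals (try simp only [hk₀, hkA, hkB])
    all_goals omega
  -- the rest of the characters
  have hone : ∀ g : G F m, ((oneChar : IrrCharacter (G F m)) : G F m → ℂ) g = ((1 : ℤ) : ℂ) := fun g => by simp [oneChar]
  have h1d : charDegree ((oneChar : IrrCharacter (G F m)) : G F m → ℂ) = 1 := by simp [charDegree, oneChar]
  have hne : oneChar ≠ St := fun e => by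
    rw [← e, h1d, ← hq] at hStd
    have := Nat.pow_le_pow_left (show 2 ≤ q by omega) 2
    omega
  set R : Finset (IrrCharacter (G F m)) := (Finset.univ.erase oneChar).erase St with hR
  have hsplit : ∀ f : IrrCharacter (G F m) → ℤ, ∑ χ, f χ = f oneChar + f St + ∑ χ ∈ R, f χ := fun f => by
    rw [← Finset.add_sum_erase _ f (Finset.mem_univ (oneChar : IrrCharacter (G F m))),
      ← Finset.add_sum_erase _ f (Finset.mem_erase.mpr ⟨hne.symm, Finset.mem_univ St⟩)]
    ring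
  -- values of the two special characters
  have e01 : ∀ i, z0 i oneChar = -1 := fun i => hc0 i oneChar 1 fun t _ => hone t
  have e0S : ∀ i, z0 i St = -1 := fun i => hc0 i St 1 fun t ht => by
    obtain ⟨s, hs⟩ := t.2
    rw [← hs]
    exact hSt0 s fun e => ht (Subtype.ext (by rw [← hs, e, map_one]; rfl))
  have eA1 : ∀ i, zA i oneChar = -1 := fun i => hcA i oneChar 1 fun t _ => hone t
  have eAS : ∀ i, zA i St = 1 := fun i => by
    have := hcA i St (-1) fun t ht => hSt1 t (tor_fpf h huA t.2 fun e => ht (Subtype.ext e))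
    simpa using this
  have eB1 : ∀ i, zB i oneChar = -1 := fun i => hcB i oneChar 1 fun t _ => hone t
  have eBS : ∀ i, zB i St = 1 := fun i => by
    have := hcB i St (-1) fun t ht => hSt1 t (tor_fpf h huB t.2 fun e => ht (Subtype.ext e))
    simpa using this
  have gR0 : ∀ i j, ∑ χ ∈ R, z0 i χ * z0 j χ = if i = j then 1 else 0 := fun i j => by
    have := hg0 i j
    rw [hsplit, e01, e01, e0S, e0S] at this
    push_cast at this
    linarith
  have gRA : ∀ i j, ∑ χ ∈ R, zA i χ * zA j χ = (if i = j then 1 else 0) + 2 := fun i j => by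
    have := hgA i j
    rw [hsplit, eA1, eA1, eAS, eAS] at this
    push_cast at this
    linarith
  have gRB : ∀ i j, ∑ χ ∈ R, zB i χ * zB j χ = (if i = j then 1 else 0) + 2 := fun i j => by
    have := hgB i j
    rw [hsplit, eB1, eB1, eBS, eBS] at this
    push_cast at this
    linarith
  -- the principal series
  choose ψ hψR hψ1 hψ0 using fun i => single_of_sq R (z0 i) (by rw [gR0, if_pos rfl])
  have hψd : ∀ i, charDegree (ψ i : G F m → ℂ) = q ^ 2 + 1 := fun i => by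
    have := hd0 i
    rw [hsplit, e01, e0S, h1d, hStd, Finset.sum_eq_single (ψ i) (fun b hb hne => by rw [hψ0 i b hb hne, zero_mul])
      (fun hh => absurd (hψR i) hh)] at this
    push_cast at this
    rcases Int.eq_one_or_neg_one_of_mul_eq_one (hψ1 i) with e | e <;> rw [e] at this
    · zify; linarith
    · exfalso
      have h1 := charDegree_pos (ψ i).2
      nlinarith [sq_nonneg (q : ℤ)]
  have hψinj : Function.Injective ψ := by
    intro i j hij
    by_contra hne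
    have := gR0 i j
    rw [if_neg hne, Finset.sum_eq_single (ψ i) (fun b hb hne => by rw [hψ0 i b hb hne, zero_mul])
      (fun hh => absurd (hψR i) hh)] at this
    rcases mul_eq_zero.mp this with e | e
    · have := hψ1 i; rw [e] at this; simp at this
    · rw [hij] at e; have := hψ1 j; rw [e] at this; simp at this
  set P := Finset.univ.image ψ with hP
  have hPc : P.card = n0 := by rw [hP, Finset.card_image_of_injective _ hψinj, Finset.card_univ, Fintype.card_fin]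
  have hPR : P ⊆ R := by
    intro c hc
    obtain ⟨i, -, rfl⟩ := Finset.mem_image.mp hc
    exact hψR i
  set O := R \ P with hO
  have hOd : ∀ χ ∈ O, (q - 1) ∣ charDegree (χ : G F m → ℂ) := fun χ hχ => by
    obtain ⟨hR', hP'⟩ := Finset.mem_sdiff.mp hχ
    rw [← hk₀]
    refine (hv0 χ fun i => hψ0 i χ hR' fun e => hP' ?_).1
    exact Finset.mem_image.mpr ⟨i, Finset.mem_univ _, e.symm⟩
  set VA := O.filter fun χ => ∀ i, zA i χ = 0 with hVA
  set VB := O.filter fun χ => ∀ i, zB i χ = 0 with hVB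
  have hbound : ∀ {n : ℕ} (z : Fin n → IrrCharacter (G F m) → ℤ),
      (∀ i j, ∑ χ ∈ R, z i χ * z j χ = (if i = j then 1 else 0) + 2) →
      O.card ≤ (O.filter fun χ => ∀ i, z i χ = 0).card + (n + 2) := fun z hz => by
    rw [← Finset.card_filter_add_card_filter_not (s := O) (fun χ => ∀ i, z i χ = 0)]
    refine Nat.add_le_add_left (le_trans (Finset.card_le_card ?_) (support_bound R z hz)) _
    intro χ hχ
    obtain ⟨h1, h2⟩ := Finset.mem_filter.mp hχ
    push Not at h2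
    exact Finset.mem_filter.mpr ⟨(Finset.mem_sdiff.mp h1).1, h2⟩
  have hVAc := hbound zA gRA
  have hVBc := hbound zB gRB
  rw [← hVA] at hVAc
  rw [← hVB] at hVBc
  have hqd : 2 ∣ q := even_iff_two_dvd.mp hqe
  have hcop : Nat.Coprime (q - 1) (q ^ 2 + 1) := by
    have h2 : Nat.gcd (q - 1) (q ^ 2 + 1) ∣ 2 := by
      have e : q ^ 2 + 1 = (q - 1) * (q + 1) + 2 := by
        have : (q : ℤ) ^ 2 + 1 = ((q : ℤ) - 1) * (q + 1) + 2 := by ring
        zify [show 1 ≤ q by omega]; exact this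
      have h3 : Nat.gcd (q - 1) (q ^ 2 + 1) ∣ (q - 1) * (q + 1) + 2 := e ▸ Nat.gcd_dvd_right _ _
      exact (Nat.dvd_add_right (Dvd.dvd.mul_right (Nat.gcd_dvd_left _ _) _)).mp h3
    rcases (Nat.dvd_prime Nat.prime_two).mp h2 with e | e
    · exact e
    · exfalso
      have := e ▸ Nat.gcd_dvd_left (q - 1) (q ^ 2 + 1)
      omega
  have hcopA : Nat.Coprime (q - 1) A := Nat.Coprime.coprime_mul_right_right (k := B) (hAB ▸ hcop)
  have hcopB : Nat.Coprime (q - 1) B := Nat.Coprime.coprime_mul_left_right (k := A) (hAB ▸ hcop)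
  have hcopAB : Nat.Coprime A B := by
    refine Nat.coprime_of_dvd fun p hp h1 h2 => ?_
    have h4 : p ∣ 4 * M := by
      have : p ∣ A - B := Nat.dvd_sub h1 h2
      rwa [show A - B = 4 * M by omega] at this
    have hp2 : p = 2 := by
      refine (Nat.prime_dvd_prime_iff_eq hp Nat.prime_two).mp (hp.dvd_of_dvd_pow (n := m + 2) ?_)
      rwa [show (2 : ℕ) ^ (m + 2) = 4 * M by rw [hM]; ring]
    subst hp2
    omega
  have hdA' : ∀ χ ∈ VA, (q - 1) * A ∣ charDegree (χ : G F m → ℂ) := fun χ hχ => by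
    obtain ⟨h1, h2⟩ := Finset.mem_filter.mp hχ
    exact hcopA.mul_dvd_of_dvd_of_dvd (hOd χ h1) (hkA ▸ (hvA χ h2).1)
  have hdB' : ∀ χ ∈ VB, (q - 1) * B ∣ charDegree (χ : G F m → ℂ) := fun χ hχ => by
    obtain ⟨h1, h2⟩ := Finset.mem_filter.mp hχ
    exact hcopB.mul_dvd_of_dvd_of_dvd (hOd χ h1) (hkB ▸ (hvB χ h2).1)
  have hmin : ∀ χ ∈ O, (q - 1) * M ≤ charDegree (χ : G F m → ℂ) := fun χ hχ => by
    obtain ⟨k, ρ, hirr, hρ⟩ := χ.2
    have hk : charDegree (χ : G F m → ℂ) = k := by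
      rw [← hρ]; simp [charDegree, Module.finrank_fin_fun]
    have hk2 : 2 ≤ k := by
      have h1 := Nat.le_of_dvd (charDegree_pos χ.2) (hOd χ hχ)
      omega
    have := min_degree h ρ hirr hk2
    rw [hk, mul_comm, hq, h.hF, hM]
    exact this
  have hsum : ∑ χ : IrrCharacter (G F m), (charDegree (χ : G F m → ℂ) : ℤ) ^ 2 =
      ((q : ℤ) ^ 2 + 1) * ((q : ℤ) ^ 2 * ((q : ℤ) - 1)) := by
    have h1 := sum_sq_degree (G := G F m)
    rw [card_G h, ← hq] at h1
    zify [show 1 ≤ q by omega] at h1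
    exact h1
  have hsumO : ∑ χ ∈ O, (charDegree (χ : G F m → ℂ) : ℤ) ^ 2 =
      ((q : ℤ) - 1) ^ 2 * (nB * (A : ℤ) ^ 2 + nA * (B : ℤ) ^ 2 + 2 * (M : ℤ) ^ 2) := by
    have hPsum : ∑ χ ∈ P, (charDegree (χ : G F m → ℂ) : ℤ) ^ 2 = (n0 : ℤ) * ((q : ℤ) ^ 2 + 1) ^ 2 := by
      rw [Finset.sum_congr rfl (g := fun _ => ((q : ℤ) ^ 2 + 1) ^ 2) (fun χ hχ => by
        obtain ⟨i, -, rfl⟩ := Finset.mem_image.mp hχ
        rw [hψd]; push_cast; rfl), Finset.sum_const, hPc, nsmul_eq_mul]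
    rw [hsplit, h1d, hStd, ← Finset.sum_sdiff hPR, ← hO, hPsum] at hsum
    push_cast at hsum
    have eA : 4 * (nA : ℤ) = q + 2 * M := by omega
    have eB : 4 * (nB : ℤ) = q - 2 * M := by omega
    have e0 : 2 * (n0 : ℤ) = q - 2 := by omega
    have eAz : (A : ℤ) = q + 2 * M + 1 := by omega
    have eBz : (B : ℤ) = q - 2 * M + 1 := by omega
    have eq' : (q : ℤ) = 2 * (M * M) := by exact_mod_cast hqM
    rw [← hq] at hsum
    push_cast at hsum
    refine mul_left_cancel₀ (four_ne_zero (α := ℤ)) ?_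
    rw [eAz, eBz]
    rw [eq'] at hsum eA eB e0 ⊢
    linear_combination 4 * hsum - 2 * ((2 * ((M : ℤ) * M)) ^ 2 + 1) ^ 2 * e0 -
      (2 * ((M : ℤ) * M) - 1) ^ 2 * (2 * ((M : ℤ) * M) - 2 * M + 1) ^ 2 * eA -
      (2 * ((M : ℤ) * M) - 1) ^ 2 * (2 * ((M : ℤ) * M) + 2 * M + 1) ^ 2 * eB
  have hq1 : (0 : ℤ) < (q : ℤ) - 1 := by omega
  -- no degree is divisible by both `A` and `B`
  have hdisj : Disjoint VA VB := by
    rw [Finset.disjoint_left]
    intro χ hA hB
    have h1 := hdA' χ hA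
    have h2 := hdB' χ hB
    obtain ⟨k, hk⟩ := hOd χ (Finset.mem_filter.mp hA).1
    rw [hk] at h1 h2
    have hq0 : 0 < q - 1 := by omega
    have h3 := hcopAB.mul_dvd_of_dvd_of_dvd (Nat.dvd_of_mul_dvd_mul_left hq0 h1) (Nat.dvd_of_mul_dvd_mul_left hq0 h2)
    have hkpos : 0 < k := by
      have := charDegree_pos χ.2
      rw [hk] at this
      exact Nat.pos_of_mul_pos_left this
    have h4 := Nat.le_of_dvd hkpos h3
    rw [hAB] at h4
    have h5 : (charDegree (χ : G F m → ℂ) : ℤ) ^ 2 ≤ _ :=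
      (Finset.single_le_sum (f := fun ξ : IrrCharacter (G F m) => (charDegree (ξ : G F m → ℂ) : ℤ) ^ 2)
        (fun ξ _ => sq_nonneg _) (Finset.mem_univ χ)).trans_eq hsum
    have e1 : (charDegree (χ : G F m → ℂ) : ℤ) = ((q : ℤ) - 1) * k := by
      rw [hk]; push_cast [Nat.cast_sub (show 1 ≤ q by omega)]; ring
    have e2 : (q : ℤ) ^ 2 + 1 ≤ k := by exact_mod_cast h4
    rw [e1] at h5
    have h6 : ((q : ℤ) - 1) ^ 2 * ((q : ℤ) ^ 2 + 1) ^ 2 ≤ ((q : ℤ) ^ 2 + 1) * ((q : ℤ) ^ 2 * ((q : ℤ) - 1)) := by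
      refine le_trans ?_ h5
      rw [mul_pow]
      exact mul_le_mul_of_nonneg_left (pow_le_pow_left₀ (by positivity) e2 2) (sq_nonneg _)
    have h7 : (q : ℤ) ^ 2 < ((q : ℤ) - 1) * ((q : ℤ) ^ 2 + 1) := by
      have h8 : (7 : ℤ) ≤ (q : ℤ) - 1 := by omega
      nlinarith [mul_le_mul_of_nonneg_right h8 (show (0 : ℤ) ≤ (q : ℤ) ^ 2 + 1 by positivity)]
    have h9 : (0 : ℤ) < ((q : ℤ) - 1) * ((q : ℤ) ^ 2 + 1) := mul_pos hq1 (by positivity)
    nlinarith [mul_lt_mul_of_pos_left h7 h9]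
  -- sizes
  have hRc : R.card + 2 = Nat.card (ConjClasses (G F m)) := by
    rw [← card_irr, Nat.card_eq_fintype_card, ← Finset.card_univ, hR,
      Finset.card_erase_of_mem (Finset.mem_erase.mpr ⟨hne.symm, Finset.mem_univ St⟩),
      Finset.card_erase_of_mem (Finset.mem_univ _)]
    have : 2 ≤ (Finset.univ : Finset (IrrCharacter (G F m))).card :=
      Finset.one_lt_card.mpr ⟨oneChar, Finset.mem_univ _, St, Finset.mem_univ _, hne⟩
    omega
  have hOc : O.card + n0 = R.card := by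
    rw [hO, ← hPc]; exact Finset.card_sdiff_add_card_eq_card hPR
  have hN : nA + nB + 2 ≤ O.card := by omega
  -- the lower bound for each degree
  set rest := O \ (VA ∪ VB) with hrest
  have hsubO : VA ∪ VB ⊆ O := Finset.union_subset (Finset.filter_subset _ _) (Finset.filter_subset _ _)
  let f : IrrCharacter (G F m) → ℕ := fun χ =>
    if χ ∈ VA then (q - 1) * A else if χ ∈ VB then (q - 1) * B else (q - 1) * M
  have hfle : ∀ χ ∈ O, (f χ : ℤ) ^ 2 ≤ (charDegree (χ : G F m → ℂ) : ℤ) ^ 2 := fun χ hχ => by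
    refine pow_le_pow_left₀ (Int.natCast_nonneg _) (Int.ofNat_le.mpr ?_) 2
    simp only [f]
    split_ifs with hA hB
    · exact Nat.le_of_dvd (charDegree_pos χ.2) (hdA' χ hA)
    · exact Nat.le_of_dvd (charDegree_pos χ.2) (hdB' χ hB)
    · exact hmin χ hχ
  have hrestc : (rest.card : ℤ) = O.card - VA.card - VB.card := by
    have h1 := Finset.card_sdiff_add_card_eq_card hsubO
    rw [Finset.card_union_of_disjoint hdisj, ← hrest] at h1
    omega
  have hfsum : ∑ χ ∈ O, (f χ : ℤ) ^ 2 = ((q : ℤ) - 1) ^ 2 *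
      (VA.card * (A : ℤ) ^ 2 + VB.card * (B : ℤ) ^ 2 + ((O.card : ℤ) - VA.card - VB.card) * (M : ℤ) ^ 2) := by
    rw [← hrestc, ← Finset.sum_sdiff hsubO, ← hrest, Finset.sum_union hdisj,
      Finset.sum_congr rfl (s₁ := rest) (g := fun _ => (((q : ℤ) - 1) * M) ^ 2) (fun χ hχ => ?_),
      Finset.sum_congr rfl (s₁ := VA) (g := fun _ => (((q : ℤ) - 1) * A) ^ 2) (fun χ hχ => ?_),
      Finset.sum_congr rfl (s₁ := VB) (g := fun _ => (((q : ℤ) - 1) * B) ^ 2) (fun χ hχ => ?_)]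
    · simp only [Finset.sum_const, nsmul_eq_mul]; ring
    · simp only [f, if_neg (Finset.disjoint_right.mp hdisj hχ), if_pos hχ]
      push_cast [Nat.cast_sub (show 1 ≤ q by omega)]; ring
    · simp only [f, if_pos hχ]
      push_cast [Nat.cast_sub (show 1 ≤ q by omega)]; ring
    · obtain ⟨-, hn⟩ := Finset.mem_sdiff.mp hχ
      rw [Finset.mem_union, not_or] at hn
      simp only [f, if_neg hn.1, if_neg hn.2]
      push_cast [Nat.cast_sub (show 1 ≤ q by omega)]; ring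
  have hle := (Finset.sum_le_sum hfle).trans_eq hsumO
  rw [hfsum] at hle
  obtain ⟨ha, hb, hNeq⟩ := squeeze (M := (M : ℤ)) (by exact_mod_cast hMA) (by exact_mod_cast hMB)
    (Int.natCast_nonneg M) (show (O.card : ℤ) - nA - 2 ≤ VA.card by omega)
    (show (O.card : ℤ) - nB - 2 ≤ VB.card by omega) (show (nA : ℤ) + nB + 2 ≤ O.card by omega)
    (le_of_mul_le_mul_left hle (pow_pos hq1 2))
  have heq : ∀ χ ∈ O, charDegree (χ : G F m → ℂ) = f χ := by
    have h1 : ∑ χ ∈ O, (f χ : ℤ) ^ 2 = ∑ χ ∈ O, (charDegree (χ : G F m → ℂ) : ℤ) ^ 2 := by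
      rw [hfsum, hsumO, ha, hb, hNeq]; ring
    intro χ hχ
    have h2 := (Finset.sum_eq_sum_iff_of_le hfle).mp h1 χ hχ
    exact_mod_cast ((pow_left_inj₀ (Int.natCast_nonneg _) (Int.natCast_nonneg _) two_ne_zero).mp h2).symm
  refine ⟨q, M, A, B, hq, rfl, hAB, Set.ext fun d => ⟨?_, ?_⟩⟩
  · rintro ⟨χ, rfl⟩
    by_cases h1 : χ = oneChar
    · subst h1; simp [h1d]
    by_cases h2 : χ = St
    · subst h2; simp [hStd, hq]
    have hχR : χ ∈ R := Finset.mem_erase.mpr ⟨h2, Finset.mem_erase.mpr ⟨h1, Finset.mem_univ χ⟩⟩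
    by_cases h3 : χ ∈ P
    · obtain ⟨i, -, rfl⟩ := Finset.mem_image.mp h3
      simp [hψd]
    rw [heq χ (Finset.mem_sdiff.mpr ⟨hχR, h3⟩)]
    simp only [f]
    split_ifs <;> simp
  · simp only [Set.mem_insert_iff, Set.mem_singleton_iff]
    rintro (rfl | rfl | rfl | rfl | rfl | rfl)
    · exact ⟨oneChar, h1d⟩
    · exact ⟨St, hStd⟩
    · exact ⟨ψ ⟨0, by omega⟩, hψd _⟩
    · obtain ⟨χ, hχ⟩ : VA.Nonempty := Finset.card_pos.mp (by omega)
      exact ⟨χ, by rw [heq χ (Finset.mem_filter.mp hχ).1]; simp only [f, if_pos hχ]⟩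
    · obtain ⟨χ, hχ⟩ : VB.Nonempty := Finset.card_pos.mp (by omega)
      exact ⟨χ, by
        rw [heq χ (Finset.mem_filter.mp hχ).1]
        simp only [f, if_neg (Finset.disjoint_right.mp hdisj hχ), if_pos hχ]⟩
    · obtain ⟨χ, hχ⟩ : rest.Nonempty := Finset.card_pos.mp (by omega)
      obtain ⟨hχO, hn⟩ := Finset.mem_sdiff.mp hχ
      rw [Finset.mem_union, not_or] at hn
      exact ⟨χ, by rw [heq χ hχO]; simp only [f, if_neg hn.1, if_neg hn.2]⟩


end Suzuki

end CfsgLib.SzDegrees
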