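import Cfsg.Agent.CharBasics.Induced
import Cfsg.Agent.BrauerInd.Induction

/-!
Integer vectors attached to a self-centralising abelian TI subgroup: multiplicities of linear characters
in the restrictions of the irreducible characters, and their Gram matrix.
-/

set_option autoImplicit false

namespace CfsgLib.SzDegrees

open Cfsg CfsgLib.CharBasics
open scoped ComplexConjugate

universe u

variable {G : Type u} [Group G] [Fintype G] (T : Subgroup G) [Fintype T] [hTc : IsMulCommutative T]

/-- The class function of a linear character of `T`. -/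
abbrev lin (l : T →* ℂˣ) : T → ℂ := fun t => (l t : ℂ)

/-- Multiplicity difference as a complex number. -/
noncomputable def mdiff (χ : G → ℂ) (l : T →* ℂˣ) : ℂ :=
  classInner (fun t : T => χ t) (lin T l) - classInner (fun t : T => χ t) (lin T 1)

theorem classInner_lin (l l' : T →* ℂˣ) [Decidable (l = l')] :
    classInner (lin T l) (lin T l') = if l = l' then 1 else 0 := by
  classical
  have hconj : ∀ t : T, conj ((l' t : ℂ)) = ((l' t⁻¹ : ℂˣ) : ℂ) := fun t => by
    have hn : ‖(l' t : ℂ)‖ = 1 :=
      Complex.norm_eq_one_of_pow_eq_one (n := orderOf t)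
        (by rw [← Units.val_pow_eq_pow_val, ← map_pow, pow_orderOf_eq_one, map_one, Units.val_one]) (orderOf_pos t).ne'
    rw [map_inv, Units.val_inv_eq_inv_val, Complex.inv_eq_conj hn]
  have hs : ∑ t : T, lin T l t * conj (lin T l' t) = ∑ t : T, (((l / l') t : ℂˣ) : ℂ) := by
    refine Finset.sum_congr rfl fun t _ => ?_
    show (l t : ℂ) * conj (l' t : ℂ) = _
    rw [hconj, MonoidHom.div_apply, div_eq_mul_inv, Units.val_mul, map_inv]
  rw [classInner_eq, hs]
  split_ifs with h
  · subst h
    simp [div_self']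
  · have h1 : (Units.coeHom ℂ).comp (l / l') ≠ 1 := fun h1 => h (by
      ext t
      have := DFunLike.congr_fun h1 t
      simp only [MonoidHom.coe_comp, Units.coeHom_apply, Function.comp_apply, MonoidHom.one_apply,
        Units.val_eq_one] at this
      rw [MonoidHom.div_apply, div_eq_one] at this
      rw [this])
    have := sum_hom_units_eq_zero ((Units.coeHom ℂ).comp (l / l')) h1
    simp only [MonoidHom.coe_comp, Units.coeHom_apply, Function.comp_apply] at this
    rw [this, mul_zero]

theorem mdiff_int {χ : G → ℂ} (h : IsCharacter G χ) (l : T →* ℂˣ) : ∃ z : ℤ, mdiff T χ l = z := by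
  have hr := isCharacter_restrict h T
  obtain ⟨a, ha⟩ := classInner_characters_nat hr (CfsgLib.BrauerInd.isCharacter_linear l)
  obtain ⟨b, hb⟩ := classInner_characters_nat hr (CfsgLib.BrauerInd.isCharacter_linear (1 : T →* ℂˣ))
  refine ⟨(a : ℤ) - b, ?_⟩
  simp only [mdiff]
  rw [show classInner (fun t : T => χ t) (lin T l) = (a : ℂ) from ha,
    show classInner (fun t : T => χ t) (lin T 1) = (b : ℂ) from hb]
  push_cast; rfl

theorem mdiff_one (χ : G → ℂ) : mdiff T χ 1 = 0 := sub_self _

theorem apply_eq_sum (f : T → ℂ) [Fintype (T →* ℂˣ)] (t : T) :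
    f t = ∑ l : T →* ℂˣ, classInner f (lin T l) * (l t : ℂ) := by
  classical
  open scoped IsMulCommutative in
  haveI : HasEnoughRootsOfUnity ℂ (Monoid.exponent T) := inferInstance
  have hcard : Nat.card (T →* ℂˣ) = Nat.card T := by
    obtain ⟨e⟩ := CommGroup.monoidHom_mulEquiv_of_hasEnoughRootsOfUnity T ℂ
    exact Nat.card_congr e.toEquiv
  have horth : ∀ s : T, ∑ l : T →* ℂˣ, (l t : ℂ) * conj (l s : ℂ) = if s = t then (Nat.card T : ℂ) else 0 := by
    intro s
    have hs : ∀ l : T →* ℂˣ, (l t : ℂ) * conj (l s : ℂ) = ((l (t * s⁻¹) : ℂˣ) : ℂ) := fun l => by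
      have hn : ‖(l s : ℂ)‖ = 1 :=
        Complex.norm_eq_one_of_pow_eq_one (n := orderOf s)
          (by rw [← Units.val_pow_eq_pow_val, ← map_pow, pow_orderOf_eq_one, map_one, Units.val_one]) (orderOf_pos s).ne'
      rw [map_mul, map_inv, Units.val_mul, Units.val_inv_eq_inv_val, Complex.inv_eq_conj hn]
    rw [Finset.sum_congr rfl fun l _ => hs l]
    split_ifs with h
    · subst h
      simp only [mul_inv_cancel, map_one, Units.val_one, Finset.sum_const, Finset.card_univ, nsmul_eq_mul, mul_one,
        ← Nat.card_eq_fintype_card, hcard]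
    · have hne : t * s⁻¹ ≠ 1 := fun e => h (mul_inv_eq_one.mp e).symm
      obtain ⟨φ, hφ⟩ := CommGroup.exists_apply_ne_one_of_hasEnoughRootsOfUnity T ℂ hne
      let Ev : (T →* ℂˣ) →* ℂ :=
        { toFun := fun l => ((l (t * s⁻¹) : ℂˣ) : ℂ)
          map_one' := by simp
          map_mul' := fun a b => by simp }
      exact sum_hom_units_eq_zero Ev fun e => hφ (Units.ext (by simpa [Ev] using DFunLike.congr_fun e φ))
  simp only [classInner_eq, Finset.mul_sum, Finset.sum_mul]
  rw [Finset.sum_comm]
  have : ∀ s : T, ∑ l : T →* ℂˣ, (Nat.card T : ℂ)⁻¹ * (f s * conj (lin T l s)) * (l t : ℂ) =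
      if s = t then f s else 0 := fun s => by
    rw [Finset.sum_congr rfl (fun l _ => show (Nat.card T : ℂ)⁻¹ * (f s * conj (lin T l s)) * (l t : ℂ) =
      (Nat.card T : ℂ)⁻¹ * f s * ((l t : ℂ) * conj (l s : ℂ)) by simp only [lin]; ring), ← Finset.mul_sum, horth]
    split_ifs
    · field_simp [(Nat.cast_ne_zero.mpr Nat.card_pos.ne' : (Nat.card T : ℂ) ≠ 0)]
    · rw [mul_zero]
  rw [Finset.sum_congr rfl fun s _ => this s]
  simp

/-- A character with all multiplicity differences zero vanishes on `T \ 1`. -/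
theorem vanish_of_mdiff (χ : G → ℂ) (h : ∀ l : T →* ℂˣ, mdiff T χ l = 0) :
    (∀ t : T, t ≠ 1 → χ (t : G) = 0) ∧
      χ 1 = (Nat.card T : ℂ) * classInner (fun t : T => χ t) (lin T 1) := by
  classical
  open scoped IsMulCommutative in
  haveI : HasEnoughRootsOfUnity ℂ (Monoid.exponent T) := inferInstance
  haveI : Finite (T →* ℂˣ) := by
    obtain ⟨e⟩ := CommGroup.monoidHom_mulEquiv_of_hasEnoughRootsOfUnity T ℂ
    exact Finite.of_equiv T e.symm.toEquiv
  haveI := Fintype.ofFinite (T →* ℂˣ)
  have hc : ∀ l : T →* ℂˣ, classInner (fun t : T => χ t) (lin T l) = classInner (fun t : T => χ t) (lin T 1) :=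
    fun l => sub_eq_zero.mp (h l)
  have hkey : ∀ t : T, χ (t : G) = classInner (fun t : T => χ t) (lin T 1) * ∑ l : T →* ℂˣ, (l t : ℂ) := fun t => by
    rw [apply_eq_sum T (fun t : T => χ t) t, Finset.mul_sum]
    exact Finset.sum_congr rfl fun l _ => by rw [hc l]
  refine ⟨fun t ht => ?_, ?_⟩
  · obtain ⟨φ, hφ⟩ := CommGroup.exists_apply_ne_one_of_hasEnoughRootsOfUnity T ℂ ht
    let Ev : (T →* ℂˣ) →* ℂ :=
      { toFun := fun l => ((l t : ℂˣ) : ℂ)
        map_one' := by simp
        map_mul' := fun a b => by simp }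
    rw [hkey, show ∑ l : T →* ℂˣ, (l t : ℂ) = 0 from
      sum_hom_units_eq_zero Ev fun e => hφ (Units.ext (by simpa [Ev] using DFunLike.congr_fun e φ)), mul_zero]
  · have h1 := hkey 1
    obtain ⟨e⟩ := CommGroup.monoidHom_mulEquiv_of_hasEnoughRootsOfUnity T ℂ
    simp only [map_one, Units.val_one, Finset.sum_const, Finset.card_univ, nsmul_eq_mul, mul_one,
      OneMemClass.coe_one, ← Nat.card_eq_fintype_card, Nat.card_congr e.toEquiv] at h1
    rw [h1, mul_comm]

variable (hC : ∀ t : G, t ∈ T → t ≠ 1 → ∀ z : G, z * t = t * z → z ∈ T)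
include hC

theorem mem_normalizer_of_conj {x t : G} (ht : t ∈ T) (ht1 : t ≠ 1) (hs : x⁻¹ * t * x ∈ T) :
    x ∈ Subgroup.normalizer (T : Set G) := by
  have hs1 : x⁻¹ * t * x ≠ 1 := fun e => ht1 (by
    calc t = x * (x⁻¹ * t * x) * x⁻¹ := by group
      _ = 1 := by rw [e]; group)
  rw [Subgroup.mem_normalizer_iff]
  intro y
  constructor
  · intro hy
    refine hC t ht ht1 _ ?_
    have hc : y * (x⁻¹ * t * x) = (x⁻¹ * t * x) * y :=
      congrArg Subtype.val (mul_comm' (⟨y, hy⟩ : T) ⟨_, hs⟩)
    calc x * y * x⁻¹ * t = x * (y * (x⁻¹ * t * x)) * x⁻¹ := by group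
      _ = x * (x⁻¹ * t * x * y) * x⁻¹ := by rw [hc]
      _ = t * (x * y * x⁻¹) := by group
  · intro hy
    refine hC _ hs hs1 _ ?_
    have hc : (x * y * x⁻¹) * t = t * (x * y * x⁻¹) :=
      congrArg Subtype.val (mul_comm' (⟨_, hy⟩ : T) ⟨t, ht⟩)
    calc y * (x⁻¹ * t * x) = x⁻¹ * (x * y * x⁻¹ * t) * x := by group
      _ = x⁻¹ * (t * (x * y * x⁻¹)) * x := by rw [hc]
      _ = x⁻¹ * t * x * y := by group

omit hC in
/-- Conjugation by a normalising element, as an automorphism of `T`. -/
def cj (x : Subgroup.normalizer (T : Set G)) : T →* T where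
  toFun t := ⟨(x : G)⁻¹ * t * x, (Subgroup.mem_normalizer_iff''.mp x.2 _).mp t.2⟩
  map_one' := Subtype.ext (by simp)
  map_mul' a b := Subtype.ext (by simp [mul_assoc])

omit hC in
theorem coe_cj (x : Subgroup.normalizer (T : Set G)) (t : T) : (cj T x t : G) = (x : G)⁻¹ * t * x := rfl

theorem indFun_apply (f : T → ℂ) (hf : f 1 = 0) (t : T) [Fintype (Subgroup.normalizer (T : Set G))] :
    indFun T f (t : G) =
      (Nat.card T : ℂ)⁻¹ * ∑ x : Subgroup.normalizer (T : Set G), f (cj T x t) := by
  classical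
  simp only [Cfsg.indFun]
  congr 1
  by_cases ht : (t : G) = 1
  · have h0 : ∀ x : Subgroup.normalizer (T : Set G), f (cj T x t) = 0 := fun x => by
      rw [show t = 1 from Subtype.ext ht, map_one, hf]
    rw [Finset.sum_eq_zero (fun x _ => h0 x)]
    refine Finset.sum_eq_zero fun g _ => ?_
    rw [ht, show g⁻¹ * 1 * g = ((1 : T) : G) by simp, extendByZero_coe, hf]
  have hout : ∀ g : G, g ∉ Subgroup.normalizer (T : Set G) → extendByZero T f (g⁻¹ * t * g) = 0 := fun g hg =>
    extendByZero_of_not_mem T f fun h => hg (mem_normalizer_of_conj T hC t.2 ht h)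
  rw [← Finset.sum_subset (Finset.subset_univ (Finset.univ.filter fun g : G => g ∈ Subgroup.normalizer (T : Set G)))
    (fun g _ hg => hout g (by simpa using hg))]
  refine Finset.sum_bij' (fun g hg => ⟨g, (Finset.mem_filter.mp hg).2⟩) (fun x _ => (x : G))
    (fun _ _ => Finset.mem_univ _) (fun x _ => Finset.mem_filter.mpr ⟨Finset.mem_univ _, x.2⟩)
    (fun _ _ => rfl) (fun _ _ => rfl) (fun g hg => ?_)
  rw [← extendByZero_coe T f, coe_cj]

theorem stab_trivial {l : T →* ℂˣ} (hl : l ≠ 1) {x : Subgroup.normalizer (T : Set G)}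
    (h : l.comp (cj T x) = l) : (x : G) ∈ T := by
  classical
  by_contra hx
  let φ : T → T := fun t => t⁻¹ * cj T x t
  have hinj : Function.Injective φ := by
    intro a b hab
    have h1 : cj T x (a * b⁻¹) = a * b⁻¹ := by
      have h2 : cj T x a = a * (b⁻¹ * cj T x b) := by
        have : a * φ a = a * φ b := by rw [hab]
        simpa [φ] using this
      rw [map_mul, map_inv, h2]
      group
    by_contra hne
    refine hx (hC _ (a * b⁻¹).2 (fun e => hne (mul_inv_eq_one.mp (Subtype.ext e))) _ ?_)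
    have h3 := congrArg Subtype.val h1
    rw [coe_cj] at h3
    conv_lhs => rw [← h3]
    group
  refine hl (MonoidHom.ext fun s => ?_)
  obtain ⟨t, rfl⟩ := (Finite.injective_iff_surjective.mp hinj) s
  show l (t⁻¹ * cj T x t) = 1
  rw [map_mul, map_inv, show l (cj T x t) = l t from DFunLike.congr_fun h t, inv_mul_cancel]

omit hC in
theorem cj_mul (x y : Subgroup.normalizer (T : Set G)) (t : T) : cj T (x * y) t = cj T y (cj T x t) :=
  Subtype.ext (by simp [coe_cj, mul_assoc])

omit hC in
theorem cj_one (t : T) : cj T 1 t = t := Subtype.ext (by simp [coe_cj])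

omit hC in
theorem mdiff_cj {χ : G → ℂ} (hχ : IsClassFunction G χ) (x : Subgroup.normalizer (T : Set G)) (l : T →* ℂˣ) :
    mdiff T χ (l.comp (cj T x)) = mdiff T χ l := by
  classical
  have : classInner (fun t : T => χ t) (lin T (l.comp (cj T x))) = classInner (fun t : T => χ t) (lin T l) := by
    simp only [classInner_eq]
    congr 1
    refine Fintype.sum_bijective (cj T x) ?_ _ _ fun t => ?_
    · refine (Finite.injective_iff_bijective).mp fun a b hab => ?_
      have := congrArg Subtype.val hab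
      simp only [coe_cj] at this
      exact Subtype.ext (mul_left_cancel (mul_right_cancel this))
    · rw [coe_cj]
      congr 1
      rw [← hχ (t : G) (x : G)⁻¹, inv_inv]
  simp [mdiff, this]

theorem classInner_ind (l l' : T →* ℂˣ) (hl : l ≠ 1) (hl' : l' ≠ 1) [Fintype (Subgroup.normalizer (T : Set G))]
    [DecidableEq (T →* ℂˣ)] :
    classInner (indFun T (lin T l - lin T 1)) (indFun T (lin T l' - lin T 1)) =
      (Nat.card T : ℂ)⁻¹ *
        (((Finset.univ.filter fun x : Subgroup.normalizer (T : Set G) => l'.comp (cj T x) = l).card : ℂ) +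
          (Nat.card (Subgroup.normalizer (T : Set G)) : ℂ)) := by
  rw [classInner_indFun T _ (isClassFunction_indFun T _)]
  have hres : ∀ t : T, indFun T (lin T l' - lin T 1) (t : G) =
      (Nat.card T : ℂ)⁻¹ * ∑ x : Subgroup.normalizer (T : Set G), (lin T (l'.comp (cj T x)) t - lin T 1 t) :=
    fun t => by rw [indFun_apply T hC _ (by simp [lin]) t]; simp [lin]
  have hi : classInner (lin T l - lin T 1) (fun t : T => indFun T (lin T l' - lin T 1) (t : G)) =
      (Nat.card T : ℂ)⁻¹ * ∑ x : Subgroup.normalizer (T : Set G),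
        (classInner (lin T l) (lin T (l'.comp (cj T x))) - classInner (lin T 1) (lin T (l'.comp (cj T x))) -
          classInner (lin T l) (lin T 1) + classInner (lin T 1) (lin T 1)) := by
    simp only [classInner_eq, hres, map_mul, map_sum, map_sub, map_inv₀, Complex.conj_natCast, Pi.sub_apply,
      Finset.mul_sum, ← Finset.sum_sub_distrib, ← Finset.sum_add_distrib]
    rw [Finset.sum_comm]
    refine Finset.sum_congr rfl fun x _ => Finset.sum_congr rfl fun t _ => ?_
    ring
  rw [hi]
  congr 1
  have hval : ∀ x : Subgroup.normalizer (T : Set G),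
      classInner (lin T l) (lin T (l'.comp (cj T x))) - classInner (lin T 1) (lin T (l'.comp (cj T x))) -
          classInner (lin T l) (lin T 1) + classInner (lin T 1) (lin T 1) =
        (if l'.comp (cj T x) = l then 1 else 0) + 1 := fun x => by
    have h1 : (1 : T →* ℂˣ) ≠ l'.comp (cj T x) := fun e => hl' (MonoidHom.ext fun s => by
      have := DFunLike.congr_fun e (cj T x⁻¹ s)
      rw [MonoidHom.comp_apply, ← cj_mul, inv_mul_cancel, cj_one] at this
      rw [← this, MonoidHom.one_apply, MonoidHom.one_apply])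
    rw [classInner_lin, classInner_lin, classInner_lin, classInner_lin, if_neg h1, if_neg hl, if_pos rfl, sub_zero,
      sub_zero]
    congr 1
    exact if_congr eq_comm rfl rfl
  rw [Finset.sum_congr rfl fun x _ => hval x, Finset.sum_add_distrib, Finset.sum_const, Finset.card_univ,
    Finset.sum_boole, nsmul_eq_mul, mul_one, ← Nat.card_eq_fintype_card]

/-- The integer vectors: one for each orbit of nontrivial linear characters. -/
theorem exists_vectors [Fintype (IrrCharacter G)] {e : ℕ}
    (hN : Nat.card (Subgroup.normalizer (T : Set G)) = e * Nat.card T) :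
    ∃ (n : ℕ) (z : Fin n → IrrCharacter G → ℤ), e * n + 1 = Nat.card T ∧
      (∀ i j, ∑ χ, z i χ * z j χ = (if i = j then 1 else 0) + (e : ℤ)) ∧
      (∀ i, ∑ χ, z i χ * (charDegree (χ : G → ℂ) : ℤ) = 0) ∧
      (∀ i (χ : IrrCharacter G) (c : ℤ), (∀ t : T, t ≠ 1 → (χ : G → ℂ) t = c) → z i χ = -c) ∧
      (∀ χ : IrrCharacter G, (∀ i, z i χ = 0) →
        Nat.card T ∣ charDegree (χ : G → ℂ) ∧ ∀ t : T, t ≠ 1 → (χ : G → ℂ) t = 0) := by
  classical
  open scoped IsMulCommutative in
  haveI : HasEnoughRootsOfUnity ℂ (Monoid.exponent T) := inferInstance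
  haveI := Fintype.ofFinite (Subgroup.normalizer (T : Set G))
  have hhom : Nat.card (T →* ℂˣ) = Nat.card T := by
    obtain ⟨e⟩ := CommGroup.monoidHom_mulEquiv_of_hasEnoughRootsOfUnity T ℂ
    exact Nat.card_congr e.toEquiv
  haveI : Finite (T →* ℂˣ) := Nat.finite_of_card_ne_zero (hhom ▸ Nat.card_pos.ne')
  haveI := Fintype.ofFinite (T →* ℂˣ)
  let s : Setoid {l : T →* ℂˣ // l ≠ 1} :=
    { r := fun a b => ∃ x : Subgroup.normalizer (T : Set G), a.1.comp (cj T x) = b.1
      iseqv := ⟨fun a => ⟨1, MonoidHom.ext fun t => by rw [MonoidHom.comp_apply, cj_one]⟩,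
        fun {a b} ⟨x, hx⟩ => ⟨x⁻¹, MonoidHom.ext fun t => by
          rw [← hx, MonoidHom.comp_apply, MonoidHom.comp_apply, ← cj_mul, inv_mul_cancel, cj_one]⟩,
        fun {a b c} ⟨x, hx⟩ ⟨y, hy⟩ => ⟨y * x, MonoidHom.ext fun t => by
          rw [← hy, ← hx, MonoidHom.comp_apply, MonoidHom.comp_apply, MonoidHom.comp_apply, cj_mul]⟩⟩ }
  haveI : Fintype {l : T →* ℂˣ // l ≠ 1} := Fintype.ofFinite _
  let Q := Quotient s
  haveI : Fintype Q := Fintype.ofFinite _
  set n := Fintype.card Q with hn
  let eQ : Fin n ≃ Q := (Fintype.equivFin Q).symm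
  let L : Fin n → {l : T →* ℂˣ // l ≠ 1} := fun i => (eQ i).out
  have hsep : ∀ i j (x : Subgroup.normalizer (T : Set G)), (L i).1.comp (cj T x) = (L j).1 → i = j := fun i j x hx => by
    have h := @Quotient.sound _ s (L i) (L j) ⟨x, hx⟩
    simp only [L, Quotient.out_eq] at h
    exact eQ.injective h
  have hfib : ∀ (i : Fin n) (x y : Subgroup.normalizer (T : Set G)),
      (L i).1.comp (cj T y) = (L i).1.comp (cj T x) ↔ ((x⁻¹ * y : Subgroup.normalizer (T : Set G)) : G) ∈ T := by
    intro i x y
    constructor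
    · intro h
      refine stab_trivial T hC (L i).2 (MonoidHom.ext fun t => ?_)
      rw [MonoidHom.comp_apply, cj_mul]
      refine (DFunLike.congr_fun h (cj T x⁻¹ t)).trans ?_
      rw [MonoidHom.comp_apply, ← cj_mul, inv_mul_cancel, cj_one]
    · intro h
      refine MonoidHom.ext fun t => ?_
      rw [MonoidHom.comp_apply, MonoidHom.comp_apply, show y = x * (x⁻¹ * y) by group, cj_mul]
      refine congrArg _ (Subtype.ext ?_)
      rw [coe_cj]
      have hcm : (cj T x t : G) * ((x⁻¹ * y : Subgroup.normalizer (T : Set G)) : G) =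
          ((x⁻¹ * y : Subgroup.normalizer (T : Set G)) : G) * cj T x t :=
        congrArg Subtype.val (mul_comm' (cj T x t) ⟨_, h⟩)
      rw [mul_assoc, hcm, inv_mul_cancel_left]
  have hcount : ∀ (i : Fin n) (x : Subgroup.normalizer (T : Set G)),
      (Finset.univ.filter fun y => (L i).1.comp (cj T y) = (L i).1.comp (cj T x)).card = Nat.card T := by
    intro i x
    rw [Nat.card_eq_fintype_card]
    refine (Finset.card_bij (fun (t : T) _ => x * (⟨(t : G), Subgroup.le_normalizer t.2⟩ : Subgroup.normalizer (T : Set G)))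
      (fun t _ => ?_) (fun t _ t' _ h => ?_) (fun y hy => ?_)).symm
    · refine Finset.mem_filter.mpr ⟨Finset.mem_univ _, (hfib i x _).mpr ?_⟩
      rw [inv_mul_cancel_left]
      exact t.2
    · exact Subtype.ext (congrArg Subtype.val (mul_left_cancel h) :)
    · exact ⟨⟨_, (hfib i x y).mp (Finset.mem_filter.mp hy).2⟩, Finset.mem_univ _, mul_inv_cancel_left x y⟩
  -- every nontrivial character is a translate of exactly one representative
  have hcover : ∀ a : {l : T →* ℂˣ // l ≠ 1}, ∃! i : Fin n, ∃ x, (L i).1.comp (cj T x) = a.1 := by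
    intro a
    refine ⟨eQ.symm (Quotient.mk s a), ?_, ?_⟩
    · have h := @Quotient.exact _ s (L (eQ.symm (Quotient.mk s a))) a (by simp [L])
      exact h
    · rintro i ⟨x, hx⟩
      have h := @Quotient.sound _ s (L i) a ⟨x, hx⟩
      simp only [L, Quotient.out_eq] at h
      rw [← h, Equiv.symm_apply_apply]
  have hne1 : ∀ (i : Fin n) (x : Subgroup.normalizer (T : Set G)), (L i).1.comp (cj T x) ≠ 1 := fun i x h =>
    (L i).2 (MonoidHom.ext fun t => by
      have := DFunLike.congr_fun h (cj T x⁻¹ t)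
      rwa [MonoidHom.comp_apply, ← cj_mul, inv_mul_cancel, cj_one, MonoidHom.one_apply] at this)
  have hsize : e * n + 1 = Nat.card T := by
    set S : Finset ({l : T →* ℂˣ // l ≠ 1}) := Finset.univ
    have h1 : ∀ i : Fin n, (Finset.univ.filter fun a : {l : T →* ℂˣ // l ≠ 1} =>
        ∃ x, (L i).1.comp (cj T x) = a.1).card * Nat.card T = Nat.card (Subgroup.normalizer (T : Set G)) := by
      intro i
      rw [Nat.card_eq_fintype_card (α := Subgroup.normalizer (T : Set G)), ← Finset.card_univ]
      rw [Finset.card_eq_sum_card_fiberwise (s := (Finset.univ : Finset (Subgroup.normalizer (T : Set G))))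
        (t := Finset.univ.filter fun a : {l : T →* ℂˣ // l ≠ 1} => ∃ x, (L i).1.comp (cj T x) = a.1)
        (f := fun x => ⟨(L i).1.comp (cj T x), hne1 i x⟩) (fun x _ => by
          simp only [Finset.coe_filter, Finset.mem_univ, true_and, Set.mem_ofPred_eq]; exact ⟨x, rfl⟩)]
      rw [Finset.sum_congr rfl (g := fun _ => Nat.card T) fun a ha => ?_, Finset.sum_const, smul_eq_mul]
      obtain ⟨x, hx⟩ := (Finset.mem_filter.mp ha).2
      rw [← hcount i x]
      congr 1
      ext y
      simp [Subtype.ext_iff, hx]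
    have h2 : ∀ i : Fin n, (Finset.univ.filter fun a : {l : T →* ℂˣ // l ≠ 1} =>
        ∃ x, (L i).1.comp (cj T x) = a.1).card = e := fun i => by
      have := h1 i
      rw [hN] at this
      exact Nat.eq_of_mul_eq_mul_right Nat.card_pos this
    have h3 : Fintype.card {l : T →* ℂˣ // l ≠ 1} = e * n := by
      rw [← Finset.card_univ]
      calc (Finset.univ : Finset {l : T →* ℂˣ // l ≠ 1}).card
          = ∑ a : {l : T →* ℂˣ // l ≠ 1}, 1 := Finset.card_eq_sum_ones _
        _ = ∑ a : {l : T →* ℂˣ // l ≠ 1}, (Finset.univ.filter fun i : Fin n => ∃ x, (L i).1.comp (cj T x) = a.1).card := by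
            refine Finset.sum_congr rfl fun a _ => ?_
            obtain ⟨i, hi, huniq⟩ := hcover a
            rw [eq_comm, Finset.card_eq_one]
            exact ⟨i, Finset.eq_singleton_iff_unique_mem.mpr ⟨Finset.mem_filter.mpr ⟨Finset.mem_univ _, hi⟩,
              fun j hj => huniq j (Finset.mem_filter.mp hj).2⟩⟩
        _ = ∑ i : Fin n, (Finset.univ.filter fun a : {l : T →* ℂˣ // l ≠ 1} => ∃ x, (L i).1.comp (cj T x) = a.1).card := by
            simp only [Finset.card_filter]; exact Finset.sum_comm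
        _ = e * n := by
            rw [Finset.sum_congr rfl fun i _ => h2 i, Finset.sum_const, Finset.card_univ, Fintype.card_fin, smul_eq_mul,
              mul_comm]
    rw [← hhom, Nat.card_eq_fintype_card, ← h3, Fintype.card_subtype_compl, Fintype.card_subtype_eq]
    exact Nat.sub_add_cancel Fintype.card_pos
  choose z hz using fun (χ : IrrCharacter G) (l : T →* ℂˣ) => mdiff_int T (isCharacter_of_irr χ.2) l
  have hT0 : (Nat.card T : ℂ) ≠ 0 := Nat.cast_ne_zero.mpr Nat.card_pos.ne'
  -- the induced class functions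
  let u : Fin n → G → ℂ := fun i => indFun T (lin T (L i).1 - lin T 1)
  have huz : ∀ i (χ : IrrCharacter G), classInner (u i) (χ : G → ℂ) = (z χ (L i).1 : ℂ) := fun i χ => by
    rw [classInner_indFun T _ (isClassFunction (isCharacter_of_irr χ.2))]
    have hm : classInner (lin T (L i).1 - lin T 1) (fun t : T => (χ : G → ℂ) t) =
        conj (mdiff T (χ : G → ℂ) (L i).1) := by
      rw [mdiff, map_sub, ← classInner_comm, ← classInner_comm]
      simp only [classInner_eq, Pi.sub_apply, sub_mul, Finset.sum_sub_distrib, mul_sub]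
    rw [hm, hz, map_intCast]
  refine ⟨n, fun i χ => z χ (L i).1, hsize, fun i j => ?_, fun i => ?_, fun i χ c hc => ?_, fun χ hχ => ?_⟩
  · have h1 : classInner (u i) (u j) = ∑ χ : IrrCharacter G, (z χ (L i).1 : ℂ) * (z χ (L j).1 : ℂ) := by
      show classInner (indFun T (lin T (L i).1 - lin T 1)) (u j) = _
      conv_lhs => rw [classFun_expand (isClassFunction_indFun T (lin T (L i).1 - lin T 1))]
      rw [classInner_sum_left]
      refine Finset.sum_congr rfl fun χ _ => ?_
      rw [classInner_smul_left, classInner_comm (u j) (χ : G → ℂ),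
        show classInner (indFun T (lin T (L i).1 - lin T 1)) (χ : G → ℂ) = _ from huz i χ, huz j χ, map_intCast]
    have h2 : classInner (u i) (u j) = ((if i = j then 1 else 0 : ℤ) : ℂ) + (e : ℂ) := by
      rw [classInner_ind T hC _ _ (L i).2 (L j).2, hN]
      by_cases hij : i = j
      · subst hij
        have hc1 := hcount i 1
        rw [show (L i).1.comp (cj T 1) = (L i).1 from MonoidHom.ext fun t => by rw [MonoidHom.comp_apply, cj_one]] at hc1
        rw [hc1, if_pos rfl]
        push_cast
        field_simp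
        try ring
      · rw [if_neg hij, Finset.card_eq_zero.mpr (Finset.filter_eq_empty_iff.mpr fun x _ h => hij (hsep j i x h).symm)]
        push_cast
        field_simp
        ring
    rw [h1] at h2
    exact_mod_cast h2
  · have h1 : u i 1 = 0 := by
      simp only [u, indFun_apply_one]; simp [lin]
    have h2 := congrFun (classFun_expand (isClassFunction_indFun T (lin T (L i).1 - lin T 1))) 1
    simp only [Finset.sum_apply, Pi.smul_apply, smul_eq_mul] at h2
    rw [show indFun T (lin T (L i).1 - lin T 1) 1 = 0 from h1] at h2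
    have h3 : (∑ χ : IrrCharacter G, (z χ (L i).1 : ℂ) * (charDegree (χ : G → ℂ) : ℂ)) = 0 := by
      rw [eq_comm, h2]
      refine Finset.sum_congr rfl fun χ _ => ?_
      rw [← apply_one (isCharacter_of_irr χ.2)]
      exact congrArg₂ (· * ·) (huz i χ) rfl
    exact_mod_cast h3
  · have hres : (fun t : T => (χ : G → ℂ) t) =
        fun t : T => (c : ℂ) * lin T 1 t + (if t = 1 then (χ : G → ℂ) 1 - c else 0) := by
      funext t
      by_cases ht : t = 1
      · subst ht; simp [lin]
      · rw [if_neg ht, hc t ht]; simp [lin]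
    have hin : ∀ l : T →* ℂˣ, classInner (fun t : T => (χ : G → ℂ) t) (lin T l) =
        (c : ℂ) * classInner (lin T 1) (lin T l) + (Nat.card T : ℂ)⁻¹ * ((χ : G → ℂ) 1 - c) := fun l => by
      rw [hres]
      simp only [classInner_eq, add_mul, Finset.sum_add_distrib, mul_add, ite_mul, zero_mul, Finset.sum_ite_eq',
        Finset.mem_univ, if_true]
      congr 1
      · rw [Finset.mul_sum, Finset.mul_sum, Finset.mul_sum]
        exact Finset.sum_congr rfl fun t _ => by ring
      · simp [lin]
    have hm := hz χ (L i).1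
    rw [mdiff, hin, hin, classInner_lin, classInner_lin, if_neg (Ne.symm (L i).2), if_pos rfl] at hm
    have : ((z χ (L i).1 : ℤ) : ℂ) = ((-c : ℤ) : ℂ) := by rw [← hm]; push_cast; ring
    exact_mod_cast this
  · have hall : ∀ l : T →* ℂˣ, mdiff T (χ : G → ℂ) l = 0 := by
      intro l
      by_cases hl : l = 1
      · rw [hl, mdiff_one]
      obtain ⟨i, ⟨x, hx⟩, -⟩ := hcover ⟨l, hl⟩
      simp only at hx
      rw [← hx, mdiff_cj T (isClassFunction (isCharacter_of_irr χ.2)), hz, show z χ (L i).1 = 0 from hχ i, Int.cast_zero]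
    obtain ⟨hv, hd⟩ := vanish_of_mdiff T (χ : G → ℂ) hall
    refine ⟨?_, hv⟩
    obtain ⟨a, ha⟩ := classInner_characters_nat (isCharacter_restrict (isCharacter_of_irr χ.2) T)
      (CfsgLib.BrauerInd.isCharacter_linear (1 : T →* ℂˣ))
    rw [show classInner (fun t : T => (χ : G → ℂ) t) (lin T 1) = (a : ℂ) from ha, apply_one (isCharacter_of_irr χ.2)] at hd
    exact ⟨a, by exact_mod_cast hd⟩

end CfsgLib.SzDegrees
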